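import Cfsg.Agent.H556.IF.Ten
import Cfsg.Agent.H786.IF.Use
import Cfsg.Agent.H75.Transfer
import Cfsg.Agent.H209.IF.Kill
import Cfsg.Agent.ClassicalGeometry.OrthAut1

/-!
# S5719, orthogonal groups, `q` odd: the model `POmega`, the cells of dimension 10 (helper556)
-/

set_option autoImplicit false
set_option maxHeartbeats 400000
set_option linter.unusedSimpArgs false
set_option linter.unusedVariables false
set_option linter.unusedSectionVars false

namespace Cfsg.Agent.H556.IF

open QuadraticMap Cfsg.Agent.LieClassical Cfsg.Agent.LieClassical.OrthCore Cfsg.Agent.LieClassical.OrthTrans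
  Cfsg.Agent.LieClassical.OrthFinite Cfsg.Agent.LieClassical.OrthForms
  Cfsg.Agent.AutOrth.SemiSim Cfsg.Agent.AutOrth.Gen Cfsg.Agent.H989.Gs.Gen Cfsg.Agent.H989.Fx
  Cfsg.Agent.H75.OrthIdx Cfsg.Agent.H209.Fxy
open Cfsg.Agent.H325.IF (Vm Vp mem_Vm mem_Vp isCompl)

/-- `T` is not commutative -/
theorem hna_of_IF {T : Type*} [Group T] [IsSimpleGroup T] {A : Subgroup T} {Γ : Subgroup (MulAut T)} (h : IF A Γ) :
    ∃ a b : T, a * b ≠ b * a := by
  by_contra hcon
  push Not at hcon
  have hn : A.Normal := ⟨fun a ha g => by rw [hcon g a, mul_assoc, mul_inv_cancel, mul_one]; exact ha⟩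
  rcases hn.eq_bot_or_eq_top with h1 | h1
  · exact h.ne_bot h1
  · exact h.ne_top h1

theorem even_of_involution {T : Type*} [Group T] [Finite T] {A : Subgroup T} (h : ∃ t ∈ A, orderOf t = 2) :
    Even (Nat.card A) := by
  obtain ⟨t, ht, ho⟩ := h
  have h1 : orderOf (⟨t, ht⟩ : A) = 2 := by rw [← ho]; exact Subgroup.orderOf_mk t ht
  rw [even_iff_two_dvd, ← h1]
  exact orderOf_dvd_natCard _

section

variable {ι : Type} [Fintype ι] [DecidableEq ι] {F : Type} [Field F] {Q : QuadraticForm F (ι → F)}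

theorem omHom_one_iff (hG : Good Q) (g : ↥(E Q)) : omHom hG g = 1 ↔ g = 1 ∨ ∀ v, ap g v = -v := by
  rw [← MonoidHom.mem_ker, omHom_ker]
  constructor
  · intro hg
    obtain ⟨c, hc⟩ := Cfsg.Agent.ClassicalGeometry.OrthAut1.center_scalar hG hg
    obtain ⟨x, y, hxy⟩ := hG.exists_hyp
    have hc' : ∀ v, ap g v = c • v := hc
    have h1 : c * c = 1 := by
      have h3 := polar_ap g x y
      rw [hc', hc', polar_smul_left, polar_smul_right, hxy.pair] at h3
      simpa using h3
    rcases mul_self_eq_one_iff.1 h1 with rfl | rfl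
    · left
      apply ext_ap
      intro v
      rw [hc', one_smul, ap_one]
    · right
      intro v
      rw [hc', neg_one_smul]
  · rintro (rfl | hg)
    · exact Subgroup.one_mem _
    · exact Cfsg.Agent.ClassicalGeometry.OrthAut1.mem_center_of_scalar (c := -1) (fun v => by
        rw [neg_one_smul]; exact hg v)

/-- **the cells of dimension 10 modulo CLAIM 0** -/
theorem ten_killE [Finite F] (h2 : (2 : F) ≠ 0) (hG : Good Q) (hN : Module.finrank F (ι → F) = 10)
    (hs : IsSimpleGroup (Cfsg.POmega F ⇑Q))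
    (hC0 : ∀ (A : Subgroup (Cfsg.POmega F ⇑Q)) (Γ : Subgroup (MulAut (Cfsg.POmega F ⇑Q))), IF A Γ →
      ∀ t ∈ A.comap (omHom hG), t * t = 1 → (Module.finrank F (Vm t) = 2 ∨ Module.finrank F (Vm t) = 8) → False) :
    KillE (Cfsg.POmega F ⇑Q) := by
  intro A Γ h hev
  have : Finite (Cfsg.POmega F ⇑Q) := Quotient.finite _
  have hna := hna_of_IF h
  refine ten_false h2 hG hN hna h (omHom hG) (omHom_surjective hG) (omHom_one_iff hG) (even_of_involution hev)
    (hC0 A Γ h) ?_
  intro t ht htt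
  have hmul : omHom hG (t * t) = 1 := by
    rw [omHom_one_iff]
    right
    intro v
    rw [ap_mul]
    exact htt v
  have hne : omHom hG t ≠ 1 := by
    intro h1
    rcases (omHom_one_iff hG t).1 h1 with h3 | h3
    · obtain ⟨x, y, hxy⟩ := hG.exists_hyp
      have h4 := htt x
      rw [h3, ap_one, ap_one] at h4
      have h5 : (2 : F) • x = 0 := by rw [two_smul]; nth_rewrite 1 [h4]; exact neg_add_cancel x
      exact hxy.left_ne ((smul_eq_zero.1 h5).resolve_left h2)
    · obtain ⟨x, y, hxy⟩ := hG.exists_hyp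
      have h4 := htt x
      rw [h3, h3, neg_neg] at h4
      have h5 : (2 : F) • x = 0 := by rw [two_smul]; nth_rewrite 1 [h4]; exact neg_add_cancel x
      exact hxy.left_ne ((smul_eq_zero.1 h5).resolve_left h2)
  obtain ⟨z, hz, hz'⟩ := Cfsg.Agent.H786.IF.use_t h2 hG.nondeg (by rw [hN]; norm_num) h hna (omHom hG)
    (omHom_surjective hG) (Subgroup.mem_comap.1 ht) hne hmul htt
  exact ⟨z, hz', hz⟩

end

end Cfsg.Agent.H556.IF
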