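import Cfsg.Agent.H556.IF.Three
import Cfsg.Agent.H325.IF.Inv3
import Cfsg.Agent.H786.IF.PhiA
import Cfsg.Agent.H847.IF.Lift
import Cfsg.Agent.H237.IF.Cnt

/-!
# S5719, orthogonal groups of dimension 10, `q` odd, both types (helper556)

* `Tri.q_le` : a subgroup without involutions of rank 2 has relative index at least `q` in every `L ≥ Ω₃`;
* `ten_false` : no counterexample of S5719 in dimension 10, given the exclusion of the ranks 2 and 8 (CLAIM 0) and a
  fundamental involution in the case `t * t = -1`;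
* `six_step` : `t * t = 1`, a 6-dimensional eigenspace `W`, `X` without involutions of rank 2 and without fundamental
  involutions in `Ω(W)`: `q ^ 5 ≤ |C(t) : X ∩ C(t)|`.
-/

set_option autoImplicit false
set_option maxHeartbeats 400000
set_option linter.unusedSimpArgs false
set_option linter.unusedVariables false
set_option linter.unusedSectionVars false

namespace Cfsg.Agent.H556.IF

open QuadraticMap Cfsg.Agent.LieClassical Cfsg.Agent.LieClassical.OrthCore Cfsg.Agent.LieClassical.OrthTrans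
  Cfsg.Agent.AutOrth.SemiSim Cfsg.Agent.AutOrth.Gen Cfsg.Agent.H989.Gs.Gen Cfsg.Agent.H989.Fx
  Cfsg.Agent.H786.IF Cfsg.Agent.H325.IF

/-- pigeonhole -/
theorem exists_ne_of_relIndex_lt {G M : Type*} [Group G] [Finite G] [AddGroup M] [Finite M] (g : M → G)
    (hg : ∀ a b, (g a)⁻¹ * g b = g (-a + b)) {L Y : Subgroup G} (hL : ∀ a, g a ∈ L)
    (hlt : Y.relIndex L < Nat.card M) : ∃ a ≠ 0, g a ∈ Y := by
  by_contra hcon
  push Not at hcon
  have hinj : Function.Injective (fun a : M => ((⟨g a, hL a⟩ : L) : L ⧸ Y.subgroupOf L)) := by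
    intro a b hab
    have h1 : ((⟨g a, hL a⟩ : L) : L ⧸ Y.subgroupOf L) = (⟨g b, hL b⟩ : L) := hab
    rw [QuotientGroup.eq, Subgroup.mem_subgroupOf] at h1
    have h2 : g (-a + b) ∈ Y := by
      rw [← hg]
      exact h1
    by_contra hne
    exact hcon (-a + b) (fun h => hne (by rw [neg_add_eq_zero] at h; exact h)) h2
  have h3 := Nat.card_le_card_of_injective _ hinj
  exact absurd hlt (not_lt.2 h3)

variable {F V : Type*} [Field F] [AddCommGroup V] [Module F V] {Q : QuadraticForm F V}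

theorem Neg_eq (t : ↥(E Q)) : Neg t = Vm t := by
  ext v
  rw [mem_Neg, mem_Vm]

theorem Tri.q_le [Finite F] [FiniteDimensional F V] (h2 : (2 : F) ≠ 0) {e f w : V} (h : Tri Q e f w)
    {L Y : Subgroup ↥(E Q)} (hLe : ∀ a : F, S Q e (a • w) ∈ L) (hLf : ∀ a : F, S Q f (a • w) ∈ L)
    (hY : ∀ t ∈ Y, t * t = 1 → Module.finrank F (Vm t) ≠ 2) : Nat.card F ≤ Y.relIndex L := by
  have hfE : Finite ↥(E Q) := Cfsg.Agent.H786.IF.finite_E
  by_contra hcon
  push Not at hcon
  have key : ∀ {x : V}, Q x = 0 → polar Q x w = 0 → ∀ a b : F,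
      (S Q x (a • w))⁻¹ * S Q x (b • w) = S Q x ((-a + b) • w) := by
    intro x hx hxw a b
    have h3 : ∀ c : F, polar Q x (c • w) = 0 := fun c => by rw [polar_smul_right, hxw, smul_zero]
    rw [S_inv hx (h3 a), ← S_add hx (by rw [polar_neg_right, h3, neg_zero]) (h3 b)]
    congr 1
    module
  obtain ⟨a, ha, ha'⟩ := exists_ne_of_relIndex_lt (fun a : F => S Q e (a • w)) (key h.hyp.left h.ew) hLe hcon
  obtain ⟨c, hc, hc'⟩ := exists_ne_of_relIndex_lt (fun a : F => S Q f (a • w)) (key h.hyp.right h.fw) hLf hcon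
  obtain ⟨t, ht, ht2, htr, -⟩ := h.exists_rank_two h2 ha hc ha' hc'
  rw [Neg_eq] at htr
  exact hY t ht ht2 htr

/-- hyperbolic pairs with a nonsingular vector -/
theorem exists_tri [Finite F] [FiniteDimensional F V] (h2 : (2 : F) ≠ 0) {W : Submodule F V} (hW : Nd Q W)
    (h3 : 3 ≤ Module.finrank F W) : ∃ e ∈ W, ∃ f ∈ W, ∃ w ∈ W, Tri Q e f w := by
  have hWb : W ≠ ⊥ := by
    rintro rfl
    rw [finrank_bot] at h3
    omega
  obtain ⟨w₀, hw, hw0⟩ := Submodule.exists_mem_ne_zero_of_ne_bot hWb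
  obtain ⟨e, he, f, hf, hyp, -⟩ := exists_pair hW h3 hw hw0
  have hd := finrank_inf_Dp he hf hyp
  have hN := nd_inf_Dp hW he hf hyp
  by_contra hcon
  push Not at hcon
  have hq : ∀ w ∈ W ⊓ Dp Q e f, Q w = 0 := by
    intro w hw
    by_contra hne
    exact hcon e he f hf w hw.1 ⟨hyp, hw.2.1, hw.2.2, hne⟩
  have hb : W ⊓ Dp Q e f = ⊥ := by
    rw [Submodule.eq_bot_iff]
    intro x hx
    apply hN x hx
    intro y hy
    have h4 := hq _ (Submodule.add_mem _ hx hy)
    rw [Q_add, hq x hx, hq y hy, zero_add, zero_add] at h4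
    exact h4
  rw [hb, finrank_bot] at hd
  omega

/-- **the step**: a 6-dimensional eigenspace -/
theorem six_step [Finite F] [FiniteDimensional F V] (h2 : (2 : F) ≠ 0) {t : ↥(E Q)} {W W' : Submodule F V} {ε : F}
    (hε : ε = 1 ∨ ε = -1) (hWe : ∀ v, v ∈ W ↔ ap t v = ε • v) (hWe' : ∀ v, v ∈ W' ↔ ap t v = -ε • v)
    (hperp : ∀ u ∈ W, ∀ v ∈ W', polar Q u v = 0)
    (hW : Nd Q W) (hd : Module.finrank F W = 6) (hW' : Nd Q W') (hd' : 3 ≤ Module.finrank F W')
    (X : Subgroup ↥(E Q)) (hX2 : ∀ z ∈ X, z * z = 1 → Module.finrank F (Vm z) ≠ 2)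
    (hXF : ∀ z ∈ X, z ∈ FP Q W → ¬ Fund Q z) :
    Nat.card F ^ 5 ≤ X.relIndex (Subgroup.centralizer ({t} : Set ↥(E Q))) := by
  set K := Subgroup.centralizer ({t} : Set ↥(E Q)) with hK
  have hmemK : ∀ g : ↥(E Q), g ∈ K ↔ t * g = g * t := by
    intro g
    rw [hK, Subgroup.mem_centralizer_singleton_iff]
    exact eq_comm
  have hKW : ∀ g ∈ K, ∀ w ∈ W, ap g w ∈ W := by
    intro g hg w hw
    rw [hWe] at hw ⊢
    rw [← ap_mul, (hmemK g).1 hg, ap_mul, hw, ap_smul]
  have hεε : ε * ε = 1 := by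
    rcases hε with rfl | rfl <;> ring
  have hSK : ∀ (τ : F), τ * τ = 1 → ∀ u w : V, ap t u = τ • u → ap t w = τ • w → Q u = 0 → polar Q u w = 0 →
      S Q u w ∈ K := by
    intro τ hτ u w hu hw hu0 huw
    rw [hmemK, ← mul_inv_eq_iff_eq_mul, S_conj, hu, hw, S_smul _ hu0 (by rw [polar_smul_right, huw, smul_zero]),
      smul_smul, hτ, one_smul]
  let P : ↥(E Q) → Prop := fun z => (z * z = 1 ∧ Module.finrank F (Vm z) = 2) ∨ (z ∈ FP Q W ∧ Fund Q z)
  have hbad : Bad Q P K W := by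
    refine ⟨?_, ?_, fun z _ hz hF => Or.inr ⟨hz, hF⟩⟩
    · rintro z - (⟨hz, -⟩ | ⟨-, hz⟩)
      · exact hz
      · exact hz.sq
    · rintro g hg z - (⟨hz, hz'⟩ | ⟨hz, hz'⟩)
      · refine Or.inl ⟨?_, ?_⟩
        · have : g * z * g⁻¹ * (g * z * g⁻¹) = g * (z * z) * g⁻¹ := by group
          rw [this, hz, mul_one, mul_inv_cancel]
        · rw [← hz']
          have e1 : Vm (g * z * g⁻¹) = (Vm z).map (g : V ≃ₗ[F] V).toLinearMap := by
            ext v
            rw [mem_Vm, Submodule.mem_map]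
            constructor
            · intro hv
              refine ⟨ap g⁻¹ v, mem_Vm.2 ?_, ap_ap_inv g v⟩
              rw [ap_mul, ap_mul] at hv
              have h4 := congrArg (ap g⁻¹) hv
              rw [ap_inv_ap, ap_neg] at h4
              exact h4
            · rintro ⟨x, hx, rfl⟩
              have h5 : ((g : V ≃ₗ[F] V).toLinearMap x) = ap g x := rfl
              rw [h5, ap_mul, ap_mul, ap_inv_ap, mem_Vm.1 hx, ap_neg]
          rw [e1]
          exact LinearEquiv.finrank_map_eq _ _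
      · refine Or.inr ⟨?_, hz'.conj g⟩
        rw [mem_FP] at hz ⊢
        intro v hv
        have h4 : ap z (ap g⁻¹ v) = ap g⁻¹ v := by
          apply hz
          intro w hw
          have h5 := hv (ap g w) (hKW g hg w hw)
          rw [← polar_ap g⁻¹, ap_inv_ap] at h5
          exact h5
        rw [ap_mul, ap_mul, h4, ap_ap_inv]
  have hXP : ∀ z ∈ X, ¬ P z := by
    rintro z hz (⟨h4, h5⟩ | ⟨h4, h5⟩)
    · exact hX2 z hz h4 h5
    · exact hXF z hz h4 h5
  obtain ⟨e, he, f, hf, w, hw, htri⟩ := exists_tri h2 hW' hd'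
  have hfixS : ∀ {u v : V}, u ∈ W' → v ∈ W' → Q u = 0 → polar Q u v = 0 → S Q u v ∈ K ⊓ Fix Q W := by
    intro u v hu hv hu0 huv
    refine ⟨hSK (-ε) (by rw [neg_mul_neg, hεε]) u v ((hWe' u).1 hu) ((hWe' v).1 hv) hu0 huv, ?_⟩
    intro x hx
    exact S_fix hu0 huv (by rw [polar_comm]; exact hperp x hx u hu) (by rw [polar_comm]; exact hperp x hx v hv)
  have hc : ∀ Y : Subgroup ↥(E Q), (∀ z ∈ Y, ¬ P z) → Nat.card F ≤ Y.relIndex (K ⊓ Fix Q W) := by
    intro Y hY
    refine htri.q_le h2 (fun a => hfixS he (W'.smul_mem _ hw) htri.hyp.left (htri.e_s a))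
      (fun a => hfixS hf (W'.smul_mem _ hw) htri.hyp.right (htri.f_s a)) fun t ht ht2 h4 => ?_
    exact hY t ht (Or.inl ⟨ht2, h4⟩)
  have h5 := baseP h2 K W P hbad hW (by omega) hKW
    (fun u hu w hw hu0 huw => hSK ε hεε u w ((hWe u).1 hu) ((hWe w).1 hw) hu0 huw) (Nat.card F) hc X hXP
  rw [hd] at h5
  calc Nat.card F ^ 5 = Nat.card F ^ (6 - 2) * Nat.card F := by norm_num [pow_succ]
    _ ≤ _ := h5

theorem finrank_Vm_of_fund [FiniteDimensional F V] (h2 : (2 : F) ≠ 0) {z : ↥(E Q)} (hz : Fund Q z) :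
    Module.finrank F (Vm z) = 4 := by
  obtain ⟨e₁, f₁, e₂, f₂, h, h1, h3, h4, h5, h6⟩ := hz
  let L : F × F × F × F →ₗ[F] V :=
    { toFun := fun p => p.1 • e₁ + p.2.1 • f₁ + p.2.2.1 • e₂ + p.2.2.2 • f₂
      map_add' := fun p p' => by
        simp only [Prod.fst_add, Prod.snd_add]
        module
      map_smul' := fun c p => by
        simp only [Prod.smul_fst, Prod.smul_snd, RingHom.id_apply, smul_eq_mul]
        module }
  have hL : ∀ p, L p = p.1 • e₁ + p.2.1 • f₁ + p.2.2.1 • e₂ + p.2.2.2 • f₂ := fun _ => rfl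
  have hinj : Function.Injective L := by
    rw [injective_iff_map_eq_zero]
    intro p hp
    rw [hL] at hp
    obtain ⟨a1, a2, a3, a4⟩ := h.indep hp
    exact Prod.ext a1 (Prod.ext a2 (Prod.ext a3 a4))
  have hr : LinearMap.range L = Vm z := by
    ext v
    rw [LinearMap.mem_range, mem_Vm]
    constructor
    · rintro ⟨p, rfl⟩
      rw [hL]
      simp only [ap_add, ap_smul, h1, h3, h4, h5]
      module
    · intro hv
      rw [fund_ap h h1 h3 h4 h5 h6 v] at hv
      refine ⟨(polar Q f₁ v, polar Q e₁ v, polar Q f₂ v, polar Q e₂ v), ?_⟩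
      rw [hL]
      have h7 : (2 : F) • (v - (polar Q f₁ v • e₁ + polar Q e₁ v • f₁ + (polar Q f₂ v • e₂ + polar Q e₂ v • f₂))) = 0 := by
        have : (2 : F) • (v - (polar Q f₁ v • e₁ + polar Q e₁ v • f₁ + (polar Q f₂ v • e₂ + polar Q e₂ v • f₂))) =
          (v - (2 : F) • (polar Q f₁ v • e₁ + polar Q e₁ v • f₁ + (polar Q f₂ v • e₂ + polar Q e₂ v • f₂))) + v := by module
        rw [this, hv, neg_add_cancel]
      have h8 := (smul_eq_zero.1 h7).resolve_left h2
      rw [sub_eq_zero] at h8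
      dsimp only
      rw [← add_assoc] at h8
      exact h8.symm
  rw [← hr, LinearMap.finrank_range_of_inj hinj]
  simp only [Module.finrank_prod, Module.finrank_self]

theorem nd_of_nondeg {W : Submodule F V} (h : Nondeg (Q.comp W.subtype)) : Nd Q W := by
  intro x hx hy
  have := h ⟨x, hx⟩ (fun y => hy y y.2)
  exact congrArg Subtype.val this

/-- the product of two involutions with orthogonal `-1`-spaces -/
theorem finrank_Vm_mul [FiniteDimensional F V] (h2 : (2 : F) ≠ 0) (hQ : Nondeg Q) {z s : ↥(E Q)} (hz : z * z = 1)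
    (hs : s * s = 1) (hsz : ∀ v ∈ Vm z, ap s v = v) : (z * s) * (z * s) = 1 ∧
      Module.finrank F (Vm (z * s)) = Module.finrank F (Vm z) + Module.finrank F (Vm s) := by
  have hzz : ∀ v, ap z (ap z v) = v := fun v => by rw [← ap_mul, hz, ap_one]
  have hss : ∀ v, ap s (ap s v) = v := fun v => by rw [← ap_mul, hs, ap_one]
  have hle : Vm s ≤ Vp z := by
    intro v hv
    rw [mem_Vp_iff h2 hQ hz]
    intro u hu
    have h3 : polar Q u v = - polar Q u v := by
      conv_lhs => rw [← polar_ap s, hsz u hu, mem_Vm.1 hv, polar_neg_right]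
    have h4 : (2 : F) * polar Q u v = 0 := by linear_combination h3
    exact (mul_eq_zero.1 h4).resolve_left h2
  have hpres : ∀ v ∈ Vp z, ap s v ∈ Vp z := by
    intro v hv
    rw [mem_Vp_iff h2 hQ hz] at hv ⊢
    intro u hu
    rw [← polar_ap s, hsz u hu, hss]
    exact hv u hu
  have hdec : ∀ v, ∃ a ∈ Vm z, ∃ b ∈ Vp z, a + b = v := fun v =>
    Submodule.mem_sup.1 (((isCompl h2 hz).codisjoint.eq_top).symm ▸ Submodule.mem_top : v ∈ Vm z ⊔ Vp z)
  have hact : ∀ a ∈ Vm z, ∀ b ∈ Vp z, ap (z * s) (a + b) = -a + ap s b := by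
    intro a ha b hb
    rw [ap_mul, ap_add, ap_add, hsz a ha, mem_Vm.1 ha, mem_Vp.1 (hpres b hb)]
  have hV : Vm (z * s) = Vm z ⊔ Vm s := by
    apply le_antisymm
    · intro v hv
      obtain ⟨a, ha, b, hb, rfl⟩ := hdec v
      rw [mem_Vm, hact a ha b hb] at hv
      refine Submodule.add_mem_sup ha ?_
      rw [mem_Vm]
      have : ap s b = (-a + ap s b) + a := by abel
      rw [this, hv]
      abel
    · rw [sup_le_iff]
      constructor
      · intro a ha
        rw [mem_Vm, ap_mul, hsz a ha, mem_Vm.1 ha]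
      · intro b hb
        rw [mem_Vm, ap_mul, mem_Vm.1 hb, ap_neg, mem_Vp.1 (hle hb)]
  constructor
  · apply ext_ap
    intro v
    obtain ⟨a, ha, b, hb, rfl⟩ := hdec v
    rw [ap_mul, hact a ha b hb, ap_one, hact (-a) ((Vm z).neg_mem ha) _ (hpres b hb), hss, neg_neg]
  · rw [hV]
    have h3 := Submodule.finrank_sup_add_finrank_inf_eq (Vm z) (Vm s)
    have h4 : Vm z ⊓ Vm s = ⊥ := by
      have h5 := (isCompl h2 hz).disjoint
      rw [disjoint_iff] at h5
      rw [eq_bot_iff, ← h5]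
      exact inf_le_inf le_rfl hle
    rw [h4, finrank_bot, add_zero] at h3
    exact h3

/-- **S5719, dimension 10, both types** -/
theorem ten_false [Finite F] [FiniteDimensional F V] (h2 : (2 : F) ≠ 0) (hG : Good Q)
    (hN : Module.finrank F V = 10) {T : Type*} [Group T] [Finite T] [IsSimpleGroup T] (hna : ∃ a b : T, a * b ≠ b * a)
    {A : Subgroup T} {Γ : Subgroup (MulAut T)} (h : Cfsg.Agent.H209.Fxy.IF A Γ) (π : ↥(E Q) →* T)
    (hπ : Function.Surjective π) (hker : ∀ g, π g = 1 ↔ g = 1 ∨ ∀ v, ap g v = -v) (hev : Even (Nat.card A))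
    (hC0 : ∀ t ∈ A.comap π, t * t = 1 → (Module.finrank F (Vm t) = 2 ∨ Module.finrank F (Vm t) = 8) → False)
    (hII : ∀ t ∈ A.comap π, (∀ v, ap t (ap t v) = -v) → ∃ z ∈ A.comap π, Fund Q z) : False := by
  have hfE : Finite ↥(E Q) := Cfsg.Agent.H786.IF.finite_E
  have hQ := hG.nondeg
  have hq1 : 1 < Nat.card F := Finite.one_lt_card
  have hX2 : ∀ z ∈ A.comap π, z * z = 1 → Module.finrank F (Vm z) ≠ 2 :=
    fun z hz hzz h4 => hC0 z hz hzz (Or.inl h4)
  -- the numerical contradiction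
  have hnum : ∀ t ∈ A.comap π, t * t = 1 → π t ≠ 1 →
      Module.finrank F (Vm t) * (10 - Module.finrank F (Vm t)) ≤ 24 →
      Nat.card F ^ 5 ≤ (A.comap π).relIndex (Subgroup.centralizer ({t} : Set ↥(E Q))) → False := by
    intro t ht htt ht1 hk hle
    have h3 := Cfsg.Agent.H847.IF.lift_E2 h hna π hπ (Subgroup.mem_comap.1 ht) ht1 (by rw [htt, map_one])
      (B := Subgroup.centralizer ({t} : Set ↥(E Q))) (fun b hb => by
        rw [Subgroup.mem_centralizer_singleton_iff] at hb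
        rw [hb])
    have h4 := Cfsg.Agent.H237.IF.class_sq_one h2 hQ t htt (Vm t) (fun v => mem_Vm)
    rw [hN] at h4
    have h5 : Nat.card F ^ (Module.finrank F (Vm t) * (10 - Module.finrank F (Vm t)) + 1) ≤ Nat.card F ^ 25 :=
      Nat.pow_le_pow_right (by omega) (by omega)
    have h6 : (Nat.card F ^ 5) ^ 5 ≤ (A.comap π).relIndex (Subgroup.centralizer ({t} : Set ↥(E Q))) ^ 5 :=
      Nat.pow_le_pow_left hle 5
    rw [← pow_mul] at h6
    norm_num at h6
    omega
  have hdim : ∀ t : ↥(E Q), t * t = 1 → Module.finrank F (Vm t) + Module.finrank F (Vp t) = 10 := by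
    intro t ht
    rw [← hN]
    exact Submodule.finrank_add_eq_of_isCompl (isCompl h2 ht)
  -- no fundamental involutions
  have hNF : ∀ z ∈ A.comap π, ¬ Fund Q z := by
    intro z hz hF
    have hzz := hF.sq
    have h4 := finrank_Vm_of_fund h2 hF
    have h6 : Module.finrank F (Vp z) = 6 := by have := hdim z hzz; omega
    have hz1 : π z ≠ 1 := by
      intro h1
      rcases (hker z).1 h1 with h1 | h1
      · exact hF.ne_one h2 h1
      · have h7 : Vm z = ⊤ := by
          rw [eq_top_iff]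
          intro v _
          exact mem_Vm.2 (h1 v)
        rw [h7, finrank_top] at h4
        omega
    refine hnum z hz hzz hz1 (by rw [h4]) ?_
    refine six_step h2 (ε := 1) (Or.inl rfl) (W := Vp z) (W' := Vm z) (fun v => by rw [mem_Vp, one_smul])
      (fun v => by rw [mem_Vm, neg_one_smul]) (fun u hu v hv => by rw [polar_comm]; exact polar_Vm_Vp h2 hv hu)
      (nd_of_nondeg (nondeg_Vp h2 hQ hzz)) h6 (nd_of_nondeg (nondeg_Vm h2 hQ hzz)) (by omega) _ hX2 ?_
    intro s hs hsW hsF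
    have hsz : ∀ v ∈ Vm z, ap s v = v := by
      intro v hv
      refine mem_FP.1 hsW v fun w hw => ?_
      rw [polar_comm]
      exact polar_Vm_Vp h2 hv hw
    obtain ⟨h7, h8⟩ := finrank_Vm_mul h2 hQ hzz hsF.sq hsz
    refine hC0 (z * s) ((A.comap π).mul_mem hz hs) h7 (Or.inr ?_)
    rw [h8, h4, finrank_Vm_of_fund h2 hsF]
  obtain ⟨g, hg, hg1, hg2, hcase⟩ := cases_ten π hπ hker h2 hG hN hev
  rcases hcase with ⟨h3, h4⟩ | ⟨h3, h4⟩ | ⟨h3, h4⟩ | h3 | h3
  · exact hC0 g hg h3 (Or.inl h4)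
  · exact hC0 g hg h3 (Or.inr h4)
  · have h6 : Module.finrank F (Vp g) = 4 := by have := hdim g h3; omega
    refine hnum g hg h3 hg1 (by rw [h4]) ?_
    exact six_step h2 (ε := -1) (Or.inr rfl) (W := Vm g) (W' := Vp g) (fun v => by rw [mem_Vm, neg_one_smul])
      (fun v => by rw [mem_Vp, neg_neg, one_smul]) (fun u hu v hv => polar_Vm_Vp h2 hu hv)
      (nd_of_nondeg (nondeg_Vm h2 hQ h3)) h4 (nd_of_nondeg (nondeg_Vp h2 hQ h3)) (by omega) _ hX2
      (fun z hz _ hF => hNF z hz hF)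
  · exact hNF g hg h3
  · obtain ⟨z, hz, hF⟩ := hII g hg h3
    exact hNF z hz hF

end Cfsg.Agent.H556.IF
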