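import Mathlib
import Cfsg.Agent.H989.Fx.OmF

/-!
# S5719, orthogonal groups, `q` odd: the group `Ω₃` of a hyperbolic pair and a nonsingular vector (helper556)

* `Tri.rhoE : SL₂(F) →* E Q` for a hyperbolic pair `e, f` and a nonsingular `w ⊥ e, f`:
  `u t ↦ S e (t/Q(w) • w)`, `l t ↦ S f (-t • w)`;
* `exists_sq_neg_one` : a subgroup of `SL₂(F)` with nontrivial `u a`, `l c` contains an element of square `-1`;
* `exists_rank_two` : `S e (a • w), S f (c • w) ∈ X`, `a, c ≠ 0`: `X` contains an involution of rank 2.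
-/

set_option autoImplicit false
set_option maxHeartbeats 400000
set_option linter.unusedSimpArgs false
set_option linter.unusedVariables false
set_option linter.unusedSectionVars false

namespace Cfsg.Agent.H556.IF

open QuadraticMap Cfsg.Agent.LieClassical Cfsg.Agent.LieClassical.OrthCore Cfsg.Agent.LieClassical.OrthTrans
  Cfsg.Agent.LieClassical.OrthSimple Cfsg.Agent.AutOrth.SemiSim Cfsg.Agent.AutOrth.Gen
  Cfsg.Agent.H989.Gs.Gen Cfsg.Agent.H989.Fx
open Cfsg.Agent.LieClassical.SLTwoUnipotent (u l coe_u coe_l eq_top_of_u_mem_of_l_mem)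
open Matrix (SpecialLinearGroup)

variable {F V : Type*} [Field F] [AddCommGroup V] [Module F V] {Q : QuadraticForm F V}

/-- the `-1`-eigenspace -/
def Neg (t : ↥(E Q)) : Submodule F V where
  carrier := {v | ap t v = -v}
  add_mem' {a b} ha hb := by
    change ap t (a + b) = -(a + b)
    have ha' : ap t a = -a := ha
    have hb' : ap t b = -b := hb
    rw [ap_add, ha', hb']; abel
  zero_mem' := by
    change ap t 0 = -0
    rw [neg_zero]; exact map_zero _
  smul_mem' c a ha := by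
    change ap t (c • a) = -(c • a)
    have ha' : ap t a = -a := ha
    rw [ap_smul, ha', smul_neg]

theorem mem_Neg {t : ↥(E Q)} {v : V} : v ∈ Neg t ↔ ap t v = -v := Iff.rfl

/-- a hyperbolic pair and an orthogonal nonsingular vector -/
structure Tri (Q : QuadraticForm F V) (e f w : V) : Prop where
  hyp : Hyp Q e f
  ew : polar Q e w = 0
  fw : polar Q f w = 0
  hw : Q w ≠ 0

namespace Tri

variable {e f w : V} (h : Tri Q e f w)

/-- the action of `M` -/
def phi (_ : Tri Q e f w) (M : SpecialLinearGroup (Fin 2) F) (v : V) : V :=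
  v + ((M.1 0 0 ^ 2 - 1) * polar Q f v - (Q w)⁻¹ * M.1 0 1 ^ 2 * polar Q e v
      - (Q w)⁻¹ * (M.1 0 0 * M.1 0 1) * polar Q w v) • e
    + (-(Q w * M.1 1 0 ^ 2) * polar Q f v + (M.1 1 1 ^ 2 - 1) * polar Q e v
      + M.1 1 0 * M.1 1 1 * polar Q w v) • f
    + (-(M.1 0 0 * M.1 1 0) * polar Q f v + (Q w)⁻¹ * (M.1 0 1 * M.1 1 1) * polar Q e v
      + (Q w)⁻¹ * (M.1 0 1 * M.1 1 0) * polar Q w v) • w

include h in
theorem pols : polar Q e e = 0 ∧ polar Q f f = 0 ∧ polar Q e f = 1 ∧ polar Q f e = 1 ∧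
    polar Q e w = 0 ∧ polar Q w e = 0 ∧ polar Q f w = 0 ∧ polar Q w f = 0 ∧ polar Q w w = 2 * Q w :=
  ⟨h.hyp.polar_left, h.hyp.polar_right, h.hyp.pair, h.hyp.pair', h.ew, by rw [polar_comm, h.ew], h.fw,
    by rw [polar_comm, h.fw], by rw [polar_self']⟩

theorem polar_e (M : SpecialLinearGroup (Fin 2) F) (v : V) :
    polar Q e (h.phi M v) = -(Q w * M.1 1 0 ^ 2) * polar Q f v + M.1 1 1 ^ 2 * polar Q e v
      + M.1 1 0 * M.1 1 1 * polar Q w v := by
  obtain ⟨p1, p2, p3, p4, p5, p6, p7, p8, p9⟩ := h.pols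
  unfold phi
  simp only [polar_add_right, polar_smul_right, smul_eq_mul, p1, p2, p3, p4, p5, p6, p7, p8, p9]
  ring

theorem polar_f (M : SpecialLinearGroup (Fin 2) F) (v : V) :
    polar Q f (h.phi M v) = M.1 0 0 ^ 2 * polar Q f v - (Q w)⁻¹ * M.1 0 1 ^ 2 * polar Q e v
      - (Q w)⁻¹ * (M.1 0 0 * M.1 0 1) * polar Q w v := by
  obtain ⟨p1, p2, p3, p4, p5, p6, p7, p8, p9⟩ := h.pols
  unfold phi
  simp only [polar_add_right, polar_smul_right, smul_eq_mul, p1, p2, p3, p4, p5, p6, p7, p8, p9]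
  ring

theorem polar_w (M : SpecialLinearGroup (Fin 2) F) (v : V) :
    polar Q w (h.phi M v) = -(2 * Q w * (M.1 0 0 * M.1 1 0)) * polar Q f v
      + 2 * (M.1 0 1 * M.1 1 1) * polar Q e v + (1 + 2 * (M.1 0 1 * M.1 1 0)) * polar Q w v := by
  obtain ⟨p1, p2, p3, p4, p5, p6, p7, p8, p9⟩ := h.pols
  have hw := h.hw
  unfold phi
  simp only [polar_add_right, polar_smul_right, smul_eq_mul, p1, p2, p3, p4, p5, p6, p7, p8, p9]
  field_simp
  ring

theorem det_eq (M : SpecialLinearGroup (Fin 2) F) : M.1 0 0 * M.1 1 1 - M.1 0 1 * M.1 1 0 = 1 := by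
  have := M.2
  rwa [Matrix.det_fin_two] at this

theorem phi_mul (M N : SpecialLinearGroup (Fin 2) F) (v : V) :
    h.phi (M * N) v = h.phi M (h.phi N v) := by
  have h00 : (M * N).1 0 0 = M.1 0 0 * N.1 0 0 + M.1 0 1 * N.1 1 0 := by
    simp [Matrix.mul_apply, Fin.sum_univ_two]
  have h01 : (M * N).1 0 1 = M.1 0 0 * N.1 0 1 + M.1 0 1 * N.1 1 1 := by
    simp [Matrix.mul_apply, Fin.sum_univ_two]
  have h10 : (M * N).1 1 0 = M.1 1 0 * N.1 0 0 + M.1 1 1 * N.1 1 0 := by
    simp [Matrix.mul_apply, Fin.sum_univ_two]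
  have h11 : (M * N).1 1 1 = M.1 1 0 * N.1 0 1 + M.1 1 1 * N.1 1 1 := by
    simp [Matrix.mul_apply, Fin.sum_univ_two]
  have hN := det_eq N
  have hM := det_eq M
  have hw := h.hw
  conv_rhs => rw [phi, polar_e, polar_f, polar_w]
  unfold phi
  rw [h00, h01, h10, h11]
  generalize M.1 0 0 = a at *
  generalize M.1 0 1 = b at *
  generalize M.1 1 0 = c at *
  generalize M.1 1 1 = d at *
  generalize N.1 0 0 = a' at *
  generalize N.1 0 1 = b' at *
  generalize N.1 1 0 = c' at *
  generalize N.1 1 1 = d' at *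
  generalize polar Q e v = x at *
  generalize polar Q f v = y at *
  generalize polar Q w v = z at *
  obtain ⟨k, hk⟩ : ∃ k, (Q w)⁻¹ = k := ⟨_, rfl⟩
  have hk1 : Q w * k = 1 := by rw [← hk]; exact mul_inv_cancel₀ hw
  rw [hk]
  generalize Q w = κ at *
  have e1 : ∀ (x1 x2 y1 y2 z1 z2 : F), x1 = x2 → y1 = y2 → z1 = z2 →
      v + x1 • e + y1 • f + z1 • w = v + x2 • e + y2 • f + z2 • w := by
    rintro _ _ _ _ _ _ rfl rfl rfl; rfl
  have e2 : ∀ (x1 y1 z1 x2 y2 z2 : F), v + x1 • e + y1 • f + z1 • w + x2 • e + y2 • f + z2 • w =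
      v + (x1 + x2) • e + (y1 + y2) • f + (z1 + z2) • w := by
    intro x1 y1 z1 x2 y2 z2; module
  rw [e2]
  apply e1
  · linear_combination (-(y * (b ^ 2 * c' ^ 2 + 2 * a * b * a' * c'))) * hk1 - (k * a * b * z) * hN
  · linear_combination (-(x * (c ^ 2 * b' ^ 2) + z * (c ^ 2 * a' * b'))) * hk1 + (c * d * z) * hN
  · linear_combination (y * (b * d * c' ^ 2 + 2 * b * c * a' * c')) * hk1
      + (-(a' * c' * y) + k * b' * d' * x + k * b' * c' * z) * hM + (k * b * c * z) * hN

theorem phi_one (v : V) : h.phi 1 v = v := by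
  have h00 : (1 : SpecialLinearGroup (Fin 2) F).1 0 0 = 1 := by simp
  have h01 : (1 : SpecialLinearGroup (Fin 2) F).1 0 1 = 0 := by simp
  have h10 : (1 : SpecialLinearGroup (Fin 2) F).1 1 0 = 0 := by simp
  have h11 : (1 : SpecialLinearGroup (Fin 2) F).1 1 1 = 1 := by simp
  unfold phi
  rw [h00, h01, h10, h11]
  module

/-- the linear map -/
def phiLin (M : SpecialLinearGroup (Fin 2) F) : V →ₗ[F] V where
  toFun := h.phi M
  map_add' v w := by
    unfold phi
    simp only [polar_add_right]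
    module
  map_smul' c v := by
    unfold phi
    simp only [polar_smul_right, smul_eq_mul, RingHom.id_apply]
    module

/-- **The homomorphism `SL(2,F) → GL(V)`.** -/
def rho : SpecialLinearGroup (Fin 2) F →* (V ≃ₗ[F] V) :=
  (LinearMap.GeneralLinearGroup.generalLinearEquiv F V).toMonoidHom.comp
    (MonoidHom.toHomUnits
      { toFun := h.phiLin
        map_one' := LinearMap.ext fun v => h.phi_one v
        map_mul' := fun M N => LinearMap.ext fun v => h.phi_mul M N v })

theorem rho_apply (M : SpecialLinearGroup (Fin 2) F) (v : V) : h.rho M v = h.phi M v := rfl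

include h in
theorem e_s (t : F) : polar Q e (t • w) = 0 := by rw [polar_smul_right, h.ew, smul_zero]

include h in
theorem f_s (t : F) : polar Q f (t • w) = 0 := by rw [polar_smul_right, h.fw, smul_zero]

theorem rho_u (t : F) : h.rho (u t) = ((S Q e ((t * (Q w)⁻¹) • w) : ↥(E Q)) : V ≃ₗ[F] V) := by
  ext v
  have e1 : ((S Q e ((t * (Q w)⁻¹) • w) : ↥(E Q)) : V ≃ₗ[F] V) v = ap (S Q e ((t * (Q w)⁻¹) • w)) v := rfl
  rw [rho_apply, e1, S_ap h.hyp.left (h.e_s _)]
  unfold phi
  have h00 : (u t : SpecialLinearGroup (Fin 2) F).1 0 0 = 1 := by simp [u]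
  have h01 : (u t : SpecialLinearGroup (Fin 2) F).1 0 1 = t := by simp [u]
  have h10 : (u t : SpecialLinearGroup (Fin 2) F).1 1 0 = 0 := by simp [u]
  have h11 : (u t : SpecialLinearGroup (Fin 2) F).1 1 1 = 1 := by simp [u]
  have hw := h.hw
  rw [h00, h01, h10, h11, QuadraticMap.map_smul]
  simp only [polar_smul_left, smul_eq_mul]
  have e2 : t * (Q w)⁻¹ * (t * (Q w)⁻¹) * Q w = (Q w)⁻¹ * t ^ 2 := by
    field_simp
  rw [e2]
  module

theorem rho_l (t : F) : h.rho (l t) = ((S Q f ((-t) • w) : ↥(E Q)) : V ≃ₗ[F] V) := by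
  ext v
  have e1 : ((S Q f ((-t) • w) : ↥(E Q)) : V ≃ₗ[F] V) v = ap (S Q f ((-t) • w)) v := rfl
  rw [rho_apply, e1, S_ap h.hyp.right (h.f_s _)]
  unfold phi
  have h00 : (l t : SpecialLinearGroup (Fin 2) F).1 0 0 = 1 := by simp [l]
  have h01 : (l t : SpecialLinearGroup (Fin 2) F).1 0 1 = 0 := by simp [l]
  have h10 : (l t : SpecialLinearGroup (Fin 2) F).1 1 0 = t := by simp [l]
  have h11 : (l t : SpecialLinearGroup (Fin 2) F).1 1 1 = 1 := by simp [l]
  rw [h00, h01, h10, h11, QuadraticMap.map_smul]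
  simp only [polar_smul_left, smul_eq_mul]
  module

theorem rho_mem (M : SpecialLinearGroup (Fin 2) F) : h.rho M ∈ E Q := by
  have h1 : (E Q).comap h.rho = ⊤ := by
    apply eq_top_of_u_mem_of_l_mem
    · intro t
      rw [Subgroup.mem_comap, rho_u]
      exact Subtype.property _
    · intro t
      rw [Subgroup.mem_comap, rho_l]
      exact Subtype.property _
  exact Subgroup.mem_comap.1 (h1 ▸ Subgroup.mem_top M)

/-- `rho` as a homomorphism to `E Q` -/
def rhoE : SpecialLinearGroup (Fin 2) F →* ↥(E Q) := h.rho.codRestrict (E Q) h.rho_mem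

theorem ap_rhoE (M : SpecialLinearGroup (Fin 2) F) (v : V) : ap (h.rhoE M) v = h.phi M v := rfl

theorem rhoE_u (t : F) : h.rhoE (u t) = S Q e ((t * (Q w)⁻¹) • w) := Subtype.ext (h.rho_u t)

theorem rhoE_l (t : F) : h.rhoE (l t) = S Q f ((-t) • w) := Subtype.ext (h.rho_l t)

/-- coordinates -/
def vec (_ : Tri Q e f w) : F × F × F →ₗ[F] V where
  toFun p := p.1 • w + p.2.1 • e + p.2.2 • f
  map_add' p p' := by
    simp only [Prod.fst_add, Prod.snd_add]
    module
  map_smul' c p := by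
    simp only [Prod.smul_fst, Prod.smul_snd, RingHom.id_apply, smul_eq_mul]
    module

theorem vec_apply (p : F × F × F) : h.vec p = p.1 • w + p.2.1 • e + p.2.2 • f := rfl

theorem vec_pol (p : F × F × F) : polar Q e (h.vec p) = p.2.2 ∧ polar Q f (h.vec p) = p.2.1 ∧
    polar Q w (h.vec p) = 2 * Q w * p.1 := by
  obtain ⟨p1, p2, p3, p4, p5, p6, p7, p8, p9⟩ := h.pols
  rw [vec_apply]
  simp only [polar_add_right, polar_smul_right, smul_eq_mul, p1, p2, p3, p4, p5, p6, p7, p8, p9]
  exact ⟨by ring, by ring, by ring⟩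

theorem vec_injective (h2 : (2 : F) ≠ 0) : Function.Injective h.vec := by
  rw [injective_iff_map_eq_zero]
  intro p hp
  obtain ⟨h3, h4, h5⟩ := h.vec_pol p
  rw [hp, polar_zero_right] at h3 h4 h5
  have h6 : p.1 = 0 := (mul_eq_zero.1 h5.symm).resolve_left (mul_ne_zero h2 h.hw)
  exact Prod.ext h6 (Prod.ext h4.symm h3.symm)

/-- **an element of square `-1` acts as an involution of rank 2** -/
theorem finrank_Neg (h2 : (2 : F) ≠ 0) {A : SpecialLinearGroup (Fin 2) F} (hA : A.1 * A.1 = -1) :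
    Module.finrank F (Neg (h.rhoE A)) = 2 := by
  have hdet := det_eq A
  have e00 : A.1 0 0 * A.1 0 0 + A.1 0 1 * A.1 1 0 = -1 := by
    have := congrFun (congrFun hA 0) 0
    simpa [Matrix.mul_apply, Fin.sum_univ_two] using this
  have e01 : A.1 0 0 * A.1 0 1 + A.1 0 1 * A.1 1 1 = 0 := by
    have := congrFun (congrFun hA 0) 1
    simpa [Matrix.mul_apply, Fin.sum_univ_two] using this
  have e10 : A.1 1 0 * A.1 0 0 + A.1 1 1 * A.1 1 0 = 0 := by
    have := congrFun (congrFun hA 1) 0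
    simpa [Matrix.mul_apply, Fin.sum_univ_two] using this
  have e11 : A.1 1 0 * A.1 0 1 + A.1 1 1 * A.1 1 1 = -1 := by
    have := congrFun (congrFun hA 1) 1
    simpa [Matrix.mul_apply, Fin.sum_univ_two] using this
  have htr : A.1 1 1 = -A.1 0 0 := by
    have t0 : A.1 0 0 * (A.1 0 0 + A.1 1 1) = 0 := by linear_combination e00 + hdet
    have t1 : A.1 1 1 * (A.1 0 0 + A.1 1 1) = 0 := by linear_combination e11 + hdet
    by_contra hcon
    have hne : A.1 0 0 + A.1 1 1 ≠ 0 := fun h0 => hcon (by linear_combination h0)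
    have h3 := (mul_eq_zero.1 t0).resolve_right hne
    have h4 := (mul_eq_zero.1 t1).resolve_right hne
    exact hne (by rw [h3, h4, add_zero])
  -- the linear form
  let ℓ : F × F × F →ₗ[F] F :=
    { toFun := fun p => 2 * A.1 0 0 * p.1 + A.1 1 0 * p.2.1 + (Q w)⁻¹ * A.1 0 1 * p.2.2
      map_add' := fun p p' => by simp only [Prod.fst_add, Prod.snd_add]; ring
      map_smul' := fun c p => by simp only [Prod.smul_fst, Prod.smul_snd, RingHom.id_apply, smul_eq_mul]; ring }
  have hℓ : ∀ p : F × F × F, ℓ p = 2 * A.1 0 0 * p.1 + A.1 1 0 * p.2.1 + (Q w)⁻¹ * A.1 0 1 * p.2.2 := fun _ => rfl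
  have hk : (Q w)⁻¹ * Q w = 1 := inv_mul_cancel₀ h.hw
  have hk0 : (Q w)⁻¹ ≠ 0 := inv_ne_zero h.hw
  have hact : ∀ p : F × F × F, h.phi A (h.vec p) = -h.vec p + (-(A.1 0 0 * ℓ p)) • w + (-(A.1 0 1 * ℓ p)) • e
      + (-(Q w * A.1 1 0 * ℓ p)) • f := by
    intro p
    obtain ⟨h3, h4, h5⟩ := h.vec_pol p
    unfold phi
    rw [h3, h4, h5, hℓ, vec_apply, htr]
    rw [htr] at hdet
    generalize A.1 0 0 = a at *
    generalize A.1 0 1 = b at *
    generalize A.1 1 0 = c at *
    generalize (Q w)⁻¹ = k at *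
    generalize Q w = κ at *
    obtain ⟨α, β, γ⟩ := p
    have e1 : ∀ (x1 x2 y1 y2 z1 z2 : F), α + x1 = -α + x2 → β + y1 = -β + y2 → γ + z1 = -γ + z2 →
        α • w + β • e + γ • f + y1 • e + z1 • f + x1 • w =
        -(α • w + β • e + γ • f) + x2 • w + y2 • e + z2 • f := by
      intro x1 x2 y1 y2 z1 z2 t1 t2 t3
      have t1' : x2 = α + x1 + α := by linear_combination -t1
      have t2' : y2 = β + y1 + β := by linear_combination -t2
      have t3' : z2 = γ + z1 + γ := by linear_combination -t3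
      rw [t1', t2', t3']
      module
    apply e1
    · dsimp only
      linear_combination (-2 * α) * hdet + 2 * α * b * c * hk
    · dsimp only
      linear_combination (-β) * hdet - 2 * a * b * α * hk
    · dsimp only
      linear_combination (-γ) * hdet + b * c * γ * hk
  have hNeg : Neg (h.rhoE A) = (LinearMap.ker ℓ).map h.vec := by
    ext v
    rw [mem_Neg, ap_rhoE, Submodule.mem_map]
    constructor
    · intro hv
      have h3 : ∃ p, v = h.vec p := by
        have h4 : (2 : F) • v = v - h.phi A v := by rw [hv]; module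
        refine ⟨(2 : F)⁻¹ • (-(-(A.1 0 0 * A.1 1 0) * polar Q f v + (Q w)⁻¹ * (A.1 0 1 * A.1 1 1) * polar Q e v
          + (Q w)⁻¹ * (A.1 0 1 * A.1 1 0) * polar Q w v),
          -((A.1 0 0 ^ 2 - 1) * polar Q f v - (Q w)⁻¹ * A.1 0 1 ^ 2 * polar Q e v
            - (Q w)⁻¹ * (A.1 0 0 * A.1 0 1) * polar Q w v),
          -(-(Q w * A.1 1 0 ^ 2) * polar Q f v + (A.1 1 1 ^ 2 - 1) * polar Q e v
            + A.1 1 0 * A.1 1 1 * polar Q w v)), ?_⟩
        rw [map_smul, vec_apply]
        have h5 : v = (2 : F)⁻¹ • ((2 : F) • v) := by rw [smul_smul, inv_mul_cancel₀ h2, one_smul]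
        conv_lhs => rw [h5, h4]
        congr 1
        unfold phi
        module
      obtain ⟨p, rfl⟩ := h3
      refine ⟨p, ?_, rfl⟩
      rw [LinearMap.mem_ker]
      rw [hact] at hv
      have h4 : (-(A.1 0 0 * ℓ p)) • w + (-(A.1 0 1 * ℓ p)) • e + (-(Q w * A.1 1 0 * ℓ p)) • f = 0 := by
        have : (-(A.1 0 0 * ℓ p)) • w + (-(A.1 0 1 * ℓ p)) • e + (-(Q w * A.1 1 0 * ℓ p)) • f =
          (-h.vec p + (-(A.1 0 0 * ℓ p)) • w + (-(A.1 0 1 * ℓ p)) • e + (-(Q w * A.1 1 0 * ℓ p)) • f)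
            - (-h.vec p) := by module
        rw [this, hv, sub_self]
      have h5 : h.vec (-(A.1 0 0 * ℓ p), -(A.1 0 1 * ℓ p), -(Q w * A.1 1 0 * ℓ p)) = 0 := h4
      have h6 := (injective_iff_map_eq_zero _).1 (h.vec_injective h2) _ h5
      have h7 : A.1 0 0 * ℓ p = 0 := neg_eq_zero.1 (congrArg Prod.fst h6)
      have h8 : A.1 0 1 * ℓ p = 0 := neg_eq_zero.1 (congrArg (fun x => x.2.1) h6)
      rcases mul_eq_zero.1 h7 with h9 | h9
      · rcases mul_eq_zero.1 h8 with h10 | h10
        · exfalso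
          rw [h9, h10] at e00
          have : (1 : F) = 0 := by linear_combination e00
          exact one_ne_zero this
        · exact h10
      · exact h9
    · rintro ⟨p, hp, rfl⟩
      rw [LinearMap.mem_ker] at hp
      rw [hact, hp]
      module
  have hne : ∃ p, ℓ p ≠ 0 := by
    by_contra hcon
    push Not at hcon
    have h3 := hcon (1, 0, 0)
    have h4 := hcon (0, 1, 0)
    rw [hℓ] at h3 h4
    simp only [mul_one, mul_zero, add_zero, zero_add] at h3 h4
    have h5 : A.1 0 0 = 0 := (mul_eq_zero.1 h3).resolve_left h2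
    rw [h5, h4] at e00
    have : (1 : F) = 0 := by linear_combination e00
    exact one_ne_zero this
  have hrange : LinearMap.range ℓ = ⊤ := by
    obtain ⟨p, hp⟩ := hne
    rw [LinearMap.range_eq_top]
    intro c
    exact ⟨(c * (ℓ p)⁻¹) • p, by rw [map_smul, smul_eq_mul, mul_assoc, inv_mul_cancel₀ hp, mul_one]⟩
  have hrk := LinearMap.finrank_range_add_finrank_ker ℓ
  rw [hrange, finrank_top, Module.finrank_prod, Module.finrank_prod, Module.finrank_self] at hrk
  rw [hNeg, ← LinearEquiv.finrank_eq (Submodule.equivMapOfInjective h.vec (h.vec_injective h2) (LinearMap.ker ℓ))]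
  omega

theorem rhoE_sq {A : SpecialLinearGroup (Fin 2) F} (hA : A.1 * A.1 = -1) : h.rhoE A * h.rhoE A = 1 := by
  rw [← map_mul]
  have h3 : (A * A).1 = -1 := hA
  have h00 : (A * A).1 0 0 = -1 := by rw [h3]; simp
  have h01 : (A * A).1 0 1 = 0 := by rw [h3]; simp
  have h10 : (A * A).1 1 0 = 0 := by rw [h3]; simp
  have h11 : (A * A).1 1 1 = -1 := by rw [h3]; simp
  apply ext_ap
  intro v
  rw [ap_rhoE, ap_one]
  unfold phi
  rw [h00, h01, h10, h11]
  module

end Tri

/-- the only involution of `SL₂` -/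
theorem eq_neg_one_of_sq (h2 : (2 : F) ≠ 0) {k : SpecialLinearGroup (Fin 2) F} (hk2 : k * k = 1) (hk1 : k ≠ 1) :
    k.1 = -1 := by
  set M := k.1 with hM
  have hMM : M * M = 1 := congrArg Subtype.val hk2
  have hdet : M 0 0 * M 1 1 - M 0 1 * M 1 0 = 1 := by
    have := k.2
    rwa [Matrix.det_fin_two] at this
  have e00 : M 0 0 * M 0 0 + M 0 1 * M 1 0 = 1 := by
    have := congrFun (congrFun hMM 0) 0
    simpa [Matrix.mul_apply, Fin.sum_univ_two] using this
  have e01 : M 0 0 * M 0 1 + M 0 1 * M 1 1 = 0 := by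
    have := congrFun (congrFun hMM 0) 1
    simpa [Matrix.mul_apply, Fin.sum_univ_two] using this
  have e10 : M 1 0 * M 0 0 + M 1 1 * M 1 0 = 0 := by
    have := congrFun (congrFun hMM 1) 0
    simpa [Matrix.mul_apply, Fin.sum_univ_two] using this
  have e11 : M 1 0 * M 0 1 + M 1 1 * M 1 1 = 1 := by
    have := congrFun (congrFun hMM 1) 1
    simpa [Matrix.mul_apply, Fin.sum_univ_two] using this
  have t0 : M 0 0 * (M 0 0 + M 1 1) = 2 := by linear_combination e00 + hdet
  have t1 : M 1 1 * (M 0 0 + M 1 1) = 2 := by linear_combination e11 + hdet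
  have ht : M 0 0 + M 1 1 ≠ 0 := by
    intro h0
    rw [h0, mul_zero] at t0
    exact h2 t0.symm
  have m01 : M 0 1 = 0 := (mul_eq_zero.1 (show M 0 1 * (M 0 0 + M 1 1) = 0 by linear_combination e01)).resolve_right ht
  have m10 : M 1 0 = 0 := (mul_eq_zero.1 (show M 1 0 * (M 0 0 + M 1 1) = 0 by linear_combination e10)).resolve_right ht
  have m0011 : M 0 0 = M 1 1 := mul_right_cancel₀ ht (t0.trans t1.symm)
  rw [m01, zero_mul, add_zero] at e00
  have m00 : M 0 0 = -1 := by
    rcases mul_self_eq_one_iff.1 e00 with h5 | h5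
    · exfalso
      apply hk1
      apply Subtype.ext
      change M = 1
      ext i j
      fin_cases i <;> fin_cases j
      · simpa using h5
      · simpa using m01
      · simpa using m10
      · simpa using (m0011 ▸ h5)
    · exact h5
  ext i j
  fin_cases i <;> fin_cases j
  · simpa using m00
  · simpa using m01
  · simpa using m10
  · simpa using (m0011 ▸ m00)

/-- **two unipotent elements of `SL₂` with different fixed points generate an element of square `-1`** -/
theorem exists_sq_neg_one [Finite F] (h2 : (2 : F) ≠ 0) {H : Subgroup (SpecialLinearGroup (Fin 2) F)} {a c : F}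
    (ha : a ≠ 0) (hc : c ≠ 0) (h1 : u a ∈ H) (h3 : l c ∈ H) : ∃ A ∈ H, A.1 * A.1 = -1 := by
  cases nonempty_fintype F
  obtain ⟨p, hp⟩ := CharP.exists F
  have hpp : Fact p.Prime := ⟨CharP.char_is_prime F p⟩
  have hp2 : p ≠ 2 := by
    rintro rfl
    exact h2 (by exact_mod_cast CharP.cast_eq_zero F 2)
  have hupow : ∀ n : ℕ, (u a : SpecialLinearGroup (Fin 2) F) ^ n = u (n * a) := by
    intro n
    induction n with
    | zero => rw [pow_zero, Nat.cast_zero, zero_mul, SLTwoUnipotent.u_zero]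
    | succ n ih => rw [pow_succ, ih, ← SLTwoUnipotent.u_add, Nat.cast_succ, add_mul, one_mul]
  have hlpow : ∀ n : ℕ, (l c : SpecialLinearGroup (Fin 2) F) ^ n = l (n * c) := by
    intro n
    induction n with
    | zero => rw [pow_zero, Nat.cast_zero, zero_mul, SLTwoUnipotent.l_zero]
    | succ n ih => rw [pow_succ, ih, ← SLTwoUnipotent.l_add, Nat.cast_succ, add_mul, one_mul]
  have hsyl : 1 < Nat.card (Sylow p H) := by
    by_contra hcon
    have hcard : Nat.card (Sylow p H) = 1 := by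
      have : 0 < Nat.card (Sylow p H) := Nat.card_pos
      omega
    have hsub : Subsingleton (Sylow p H) := (Nat.card_eq_one_iff_unique.1 hcard).1
    obtain ⟨P⟩ : Nonempty (Sylow p H) := Sylow.nonempty
    have hmem : ∀ x : H, x ^ p = 1 → x ∈ P := by
      intro x hx
      have h4 : IsPGroup p (Subgroup.zpowers x) := by
        apply IsPGroup.iff_card.2
        rw [Nat.card_zpowers]
        exact (Nat.dvd_prime_pow hpp.out).1 (by rw [pow_one]; exact orderOf_dvd_of_pow_eq_one hx) |>.imp fun k hk => hk.2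
      obtain ⟨P', hP'⟩ := h4.exists_le_sylow
      rw [Subsingleton.elim P P']
      exact hP' (Subgroup.mem_zpowers x)
    have hu : (⟨u a, h1⟩ : H) ∈ P := hmem _ (Subtype.ext (by
      change (u a : SpecialLinearGroup (Fin 2) F) ^ p = 1
      rw [hupow, CharP.cast_eq_zero, zero_mul, SLTwoUnipotent.u_zero]))
    have hl : (⟨l c, h3⟩ : H) ∈ P := hmem _ (Subtype.ext (by
      change (l c : SpecialLinearGroup (Fin 2) F) ^ p = 1
      rw [hlpow, CharP.cast_eq_zero, zero_mul, SLTwoUnipotent.l_zero]))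
    have hul := P.mul_mem hu hl
    obtain ⟨n, hn⟩ := P.isPGroup' ⟨_, hul⟩
    have h5 : (u a * l c : SpecialLinearGroup (Fin 2) F) ^ p ^ n = 1 := by
      have := congrArg (fun x => ((x : P) : H)) hn
      have := congrArg Subtype.val this
      simpa using this
    have h6 := coe_one_sub h5
    have h7 : (u a * l c : SpecialLinearGroup (Fin 2) F).1.trace = 2 + a * c := by
      rw [SLTwoUnipotent.coe_mul, coe_u, coe_l, Matrix.trace_fin_two]
      simp [Matrix.mul_apply, Fin.sum_univ_two]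
      ring
    rw [h7] at h6
    exact mul_ne_zero ha hc (by linear_combination h6)
  obtain ⟨K, hK, ⟨φ⟩⟩ := DicksonWeak.exists_subgroup_equiv p hp2 H hsyl
  -- the element of order 4 of `SL₂(p)`
  let j : SpecialLinearGroup (Fin 2) (ZMod p) := ⟨!![0, -1; 1, 0], by simp [Matrix.det_fin_two]⟩
  have hjj : (j * j).1 = -1 := by
    change (!![0, -1; 1, 0] : Matrix (Fin 2) (Fin 2) (ZMod p)) * !![0, -1; 1, 0] = -1
    ext i k
    fin_cases i <;> fin_cases k <;> simp [Matrix.mul_apply, Fin.sum_univ_two]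
  have hj2 : (j * j) * (j * j) = 1 := Subtype.ext (by
    change (j * j).1 * (j * j).1 = 1
    rw [hjj]; simp)
  have hj1 : j * j ≠ 1 := by
    intro h4
    have h5 := congrArg (fun x : SpecialLinearGroup (Fin 2) (ZMod p) => x.1 0 0) h4
    have h6 : (-1 : ZMod p) = 1 := by
      have h8 : (j * j).1 0 0 = 1 := by simpa using h5
      rw [hjj] at h8
      simpa using h8
    have h7 : (2 : ZMod p) = 0 := by linear_combination -h6
    have h8 : (p : ℕ) ∣ 2 := (ZMod.natCast_eq_zero_iff 2 p).1 (by exact_mod_cast h7)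
    exact hp2 ((Nat.prime_dvd_prime_iff_eq hpp.out Nat.prime_two).1 h8)
  set k := (φ.symm j : K) with hk
  have hk2 : ((k * k : K) : SpecialLinearGroup (Fin 2) F) * (k * k : K) = 1 := by
    have : (k * k) * (k * k) = 1 := by rw [hk, ← map_mul, ← map_mul, hj2, map_one]
    exact congrArg Subtype.val this
  have hk1 : ((k * k : K) : SpecialLinearGroup (Fin 2) F) ≠ 1 := by
    intro h4
    apply hj1
    have h5 : k * k = 1 := Subtype.ext h4
    rw [hk, ← map_mul, map_eq_one_iff _ φ.symm.injective] at h5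
    exact h5
  refine ⟨k, hK k.2, ?_⟩
  exact eq_neg_one_of_sq h2 hk2 hk1

/-- **`Ω₃`: two proportional short Siegel elements at a hyperbolic pair generate an involution of rank 2** -/
theorem Tri.exists_rank_two [Finite F] (h2 : (2 : F) ≠ 0) {e f w : V} (h : Tri Q e f w) {X : Subgroup ↥(E Q)}
    {a c : F} (ha : a ≠ 0) (hc : c ≠ 0) (h1 : S Q e (a • w) ∈ X) (h3 : S Q f (c • w) ∈ X) :
    ∃ t ∈ X, t * t = 1 ∧ Module.finrank F (Neg t) = 2 ∧ ∀ v, polar Q e v = 0 → polar Q f v = 0 →
      polar Q w v = 0 → ap t v = v := by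
  obtain ⟨A, hA, hA2⟩ := exists_sq_neg_one h2 (H := X.comap h.rhoE) (a := a * Q w) (c := -c)
    (mul_ne_zero ha h.hw) (neg_ne_zero.2 hc) (by
      rw [Subgroup.mem_comap, h.rhoE_u, mul_inv_cancel_right₀ h.hw]
      exact h1) (by
      rw [Subgroup.mem_comap, h.rhoE_l, neg_neg]
      exact h3)
  refine ⟨h.rhoE A, hA, h.rhoE_sq hA2, h.finrank_Neg h2 hA2, fun v k1 k2 k3 => ?_⟩
  rw [h.ap_rhoE]
  unfold Tri.phi
  rw [k1, k2, k3]
  module

end Cfsg.Agent.H556.IF
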